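import Cfsg.Agent.Lib.Helper35.Zass.SRG

/-!
# Partial linear spaces with four points per line (for the Zassenhaus theorem, S0690)

`pls_l_le_two`: points `P`, lines `Λ`, incidence `inc`; every line has 4 points, two distinct
points are on at most one line, every point is on `l` lines; two distinct lines `M`, `M1`
through `p` and a point `a ≠ p` of `M`: exactly one point `c ≠ p` of `M1` is collinear with
`a`; two distinct non-collinear points have exactly 4 common neighbours.  Then `l ≤ 2`.
-/

namespace Cfsg.Agent.Lib.Helper35.Zass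

open Finset

/-- Collinearity in a partial linear space. -/
def plsAdj {P : Type*} {Λ : Type*} (inc : P → Λ → Prop) (p w : P) : Prop :=
  p ≠ w ∧ ∃ M, inc p M ∧ inc w M

theorem plsAdj_symm {P : Type*} {Λ : Type*} (inc : P → Λ → Prop) {p w : P}
    (h : plsAdj inc p w) : plsAdj inc w p :=
  ⟨fun e => h.1 e.symm, h.2.imp fun _ hM => ⟨hM.2, hM.1⟩⟩

/-- The number of vertices of a graph with the parameters of `srg_l_le_two`. -/
theorem srg_card {P : Type*} [Fintype P] [DecidableEq P]
    (adj : P → P → Prop) [DecidableRel adj]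
    (hs : ∀ p w, adj p w → adj w p) (hi : ∀ p, ¬ adj p p) (l : ℕ) (hne : Nonempty P)
    (hk : ∀ p, (univ.filter (adj p)).card = 3 * l)
    (hl : ∀ p a, adj p a → (univ.filter (fun c => adj p c ∧ adj a c)).card = l + 1)
    (hm : ∀ p w, p ≠ w → ¬ adj p w → (univ.filter (fun c => adj p c ∧ adj w c)).card = 4) :
    2 * Fintype.card P = 3 * l ^ 2 + 3 * l + 2 := by
  obtain ⟨x⟩ := hne
  have hrow : ∀ x, ∑ y, (if adj x y then (1 : ℝ) else 0) = 3 * l := by
    intro x
    rw [Finset.sum_boole, hk x]
    push_cast; ring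
  have hAA : ∀ x y, ∑ z, (if adj x z then (1 : ℝ) else 0) * (if adj z y then (1 : ℝ) else 0)
      = (3 * l - 4 : ℝ) * (if x = y then 1 else 0)
        + ((l : ℝ) - 3) * (if adj x y then 1 else 0) + 4 := by
    intro x y
    have key : ∑ z, (if adj x z then (1 : ℝ) else 0) * (if adj z y then (1 : ℝ) else 0)
        = ((univ.filter (fun c => adj x c ∧ adj y c)).card : ℝ) := by
      rw [Finset.card_filter]
      push_cast
      refine Finset.sum_congr rfl fun z _ => ?_
      by_cases h1 : adj x z <;> by_cases h2 : adj y z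
      · simp [h1, h2, hs y z h2]
      · have : ¬ adj z y := fun h' => h2 (hs z y h')
        simp [h1, h2, this]
      · simp [h1]
      · simp [h1]
    rw [key]
    by_cases hxy : x = y
    · subst hxy
      have : (univ.filter (fun c => adj x c ∧ adj x c)) = univ.filter (adj x) := by
        ext; simp
      rw [this, hk x]
      simp [hi x]
    · by_cases ha : adj x y
      · rw [hl x y ha]
        simp [hxy, ha]
        ring
      · rw [hm x y hxy ha]
        simp [hxy, ha]
  have h1 : ∑ y, ∑ z, (if adj x z then (1 : ℝ) else 0) * (if adj z y then (1 : ℝ) else 0)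
      = (3 * l : ℝ) * (3 * l) := by
    rw [Finset.sum_comm]
    simp_rw [← Finset.mul_sum, hrow]
    rw [← Finset.sum_mul, hrow]
  have h2 : ∑ y, ((3 * l - 4 : ℝ) * (if x = y then 1 else 0)
        + ((l : ℝ) - 3) * (if adj x y then 1 else 0) + 4)
      = (3 * l - 4 : ℝ) + ((l : ℝ) - 3) * (3 * l) + 4 * Fintype.card P := by
    rw [Finset.sum_add_distrib, Finset.sum_add_distrib, ← Finset.mul_sum, ← Finset.mul_sum, hrow]
    simp [Finset.card_univ, mul_comm]
  have h3 : (2 * Fintype.card P : ℝ) = 3 * (l : ℝ) ^ 2 + 3 * l + 2 := by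
    have := h1
    rw [Finset.sum_congr rfl (fun y _ => hAA x y), h2] at this
    linarith
  exact_mod_cast h3

/-- `Set.ncard` version of `srg_l_le_two`. -/
theorem srg_l_le_two_ncard {P : Type*} [Finite P]
    (adj : P → P → Prop)
    (hs : ∀ p w, adj p w → adj w p) (hi : ∀ p, ¬ adj p p) (l : ℕ) (hne : Nonempty P)
    (hk : ∀ p, {w | adj p w}.ncard = 3 * l)
    (hl : ∀ p a, adj p a → {c | adj p c ∧ adj a c}.ncard = l + 1)
    (hm : ∀ p w, p ≠ w → ¬ adj p w → {c | adj p c ∧ adj w c}.ncard = 4) :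
    l ≤ 2 := by
  classical
  have := Fintype.ofFinite P
  refine srg_l_le_two adj hs hi l hne ?_ ?_ ?_
  · intro p
    rw [← hk p, Set.ncard_eq_toFinset_card']
    congr 1; ext w; simp
  · intro p a h
    rw [← hl p a h, Set.ncard_eq_toFinset_card']
    congr 1; ext w; simp
  · intro p w h1 h2
    rw [← hm p w h1 h2, Set.ncard_eq_toFinset_card']
    congr 1; ext c; simp

theorem pls_main {P : Type*} {Λ : Type*} [Finite P] [Finite Λ] (inc : P → Λ → Prop) (l : ℕ)
    (hne : Nonempty P)
    (h4 : ∀ M, {p | inc p M}.ncard = 4)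
    (huniq : ∀ p w M M', p ≠ w → inc p M → inc w M → inc p M' → inc w M' → M = M')
    (hl : ∀ p, {M | inc p M}.ncard = l)
    (hT : ∀ p M M1 a, M ≠ M1 → inc p M → inc p M1 → inc a M → a ≠ p →
      ∃! c, inc c M1 ∧ c ≠ p ∧ plsAdj inc a c)
    (hmu : ∀ p w, p ≠ w → ¬ plsAdj inc p w →
      {c | plsAdj inc p c ∧ plsAdj inc w c}.ncard = 4) :
    l ≤ 2 ∧ 2 * Nat.card P = 3 * l ^ 2 + 3 * l + 2 := by
  classical
  have := Fintype.ofFinite P
  have := Fintype.ofFinite Λ
  suffices H : (∀ p, (univ.filter (plsAdj inc p)).card = 3 * l) ∧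
      (∀ p a, plsAdj inc p a →
        (univ.filter (fun c => plsAdj inc p c ∧ plsAdj inc a c)).card = l + 1) ∧
      (∀ p w, p ≠ w → ¬ plsAdj inc p w →
        (univ.filter (fun c => plsAdj inc p c ∧ plsAdj inc w c)).card = 4) by
    refine ⟨srg_l_le_two (plsAdj inc) (fun p w h => plsAdj_symm inc h) (fun p h => h.1 rfl) l hne
      H.1 H.2.1 H.2.2, ?_⟩
    rw [Nat.card_eq_fintype_card]
    exact srg_card (plsAdj inc) (fun p w h => plsAdj_symm inc h) (fun p h => h.1 rfl) l hne
      H.1 H.2.1 H.2.2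
  have h4' : ∀ M, (univ.filter (fun p => inc p M)).card = 4 := by
    intro M
    rw [← h4 M, Set.ncard_eq_toFinset_card']
    congr 1; ext w; simp
  have hl' : ∀ p, (univ.filter (fun M => inc p M)).card = l := by
    intro p
    rw [← hl p, Set.ncard_eq_toFinset_card']
    congr 1; ext w; simp
  refine ⟨?_, ?_, ?_⟩
  · -- valency
    intro p
    have hU : univ.filter (plsAdj inc p)
        = (univ.filter (fun M => inc p M)).biUnion
            (fun M => (univ.filter (fun w => inc w M)).erase p) := by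
      ext w
      simp only [mem_filter, mem_univ, true_and, mem_biUnion, mem_erase]
      constructor
      · rintro ⟨hpw, M, hpM, hwM⟩
        exact ⟨M, hpM, fun e => hpw e.symm, hwM⟩
      · rintro ⟨M, hpM, hwp, hwM⟩
        exact ⟨fun e => hwp e.symm, M, hpM, hwM⟩
    rw [hU, card_biUnion]
    · have : ∀ M ∈ univ.filter (fun M => inc p M),
          ((univ.filter (fun w => inc w M)).erase p).card = 3 := by
        intro M hM
        rw [card_erase_of_mem (by simpa using hM), h4' M]
      rw [sum_congr rfl this, sum_const, hl' p, smul_eq_mul, mul_comm]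
    · intro M hM M' hM' hne'
      show Disjoint ((univ.filter (fun w => inc w M)).erase p)
        ((univ.filter (fun w => inc w M')).erase p)
      rw [Finset.disjoint_left]
      intro w hw hw'
      simp only [mem_filter, mem_univ, true_and, mem_erase, coe_filter, Set.mem_ofPred_eq]
        at hM hM' hw hw'
      exact hne' (huniq p w M M' (fun e => hw.1 e.symm) hM hw.2 hM' hw'.2)
  · -- lambda
    intro p a hpa
    obtain ⟨hpa_ne, M, hpM, haM⟩ := hpa
    have hex : ∀ M1, ∃ c, (inc p M1 ∧ M ≠ M1) →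
        (inc c M1 ∧ c ≠ p ∧ plsAdj inc a c) ∧
          ∀ c', (inc c' M1 ∧ c' ≠ p ∧ plsAdj inc a c') → c' = c := by
      intro M1
      by_cases h : inc p M1 ∧ M ≠ M1
      · obtain ⟨c, hc, hu⟩ := hT p M M1 a h.2 hpM h.1 haM (fun e => hpa_ne e.symm)
        exact ⟨c, fun _ => ⟨hc, hu⟩⟩
      · exact ⟨p, fun h' => absurd h' h⟩
    choose f hf using hex
    set C1 : Finset P := ((univ.filter (fun w => inc w M)).erase p).erase a with hC1
    set Lp : Finset Λ := (univ.filter (fun M1 => inc p M1)).erase M with hLp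
    have hC1card : C1.card = 2 := by
      rw [hC1, card_erase_of_mem, card_erase_of_mem (by simpa using hpM), h4' M]
      simp only [mem_erase, mem_filter, mem_univ, true_and]
      exact ⟨fun e => hpa_ne e.symm, haM⟩
    have hLpcard : Lp.card = l - 1 := by
      rw [hLp, card_erase_of_mem (by simpa using hpM), hl' p]
    have hl1 : 1 ≤ l := by
      rw [← hl' p]
      exact Finset.card_pos.mpr ⟨M, by simpa using hpM⟩
    have hLpmem : ∀ M1 ∈ Lp, inc p M1 ∧ M ≠ M1 := by
      intro M1 hM1
      simp only [hLp, mem_erase, mem_filter, mem_univ, true_and] at hM1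
      exact ⟨hM1.2, fun e => hM1.1 e.symm⟩
    have hinj : Set.InjOn f (Lp : Set Λ) := by
      intro M1 hM1 M2 hM2 he
      have h1 := hLpmem M1 hM1
      have h2 := hLpmem M2 hM2
      have c1 := (hf M1 h1).1
      have c2 := (hf M2 h2).1
      rw [← he] at c2
      exact huniq p (f M1) M1 M2 (fun e => c1.2.1 e.symm) h1.1 c1.1 h2.1 c2.1
    have hC2card : (Lp.image f).card = l - 1 := by
      rw [card_image_of_injOn hinj, hLpcard]
    have hdisj : Disjoint C1 (Lp.image f) := by
      rw [Finset.disjoint_left]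
      intro c hc1 hc2
      simp only [hC1, mem_erase, mem_filter, mem_univ, true_and] at hc1
      obtain ⟨M1, hM1, rfl⟩ := mem_image.mp hc2
      have h1 := hLpmem M1 hM1
      have c1 := (hf M1 h1).1
      exact h1.2 (huniq p (f M1) M M1 (fun e => c1.2.1 e.symm) hpM hc1.2.2 h1.1 c1.1)
    have hU : univ.filter (fun c => plsAdj inc p c ∧ plsAdj inc a c) = C1 ∪ Lp.image f := by
      ext c
      simp only [mem_filter, mem_univ, true_and, mem_union]
      constructor
      · rintro ⟨hpc, hac⟩
        by_cases hcM : inc c M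
        · left
          simp only [hC1, mem_erase, mem_filter, mem_univ, true_and]
          exact ⟨fun e => hac.1 e.symm, fun e => hpc.1 e.symm, hcM⟩
        · right
          obtain ⟨hpc_ne, M1, hpM1, hcM1⟩ := hpc
          have hMM1 : M ≠ M1 := fun e => hcM (e ▸ hcM1)
          have hM1 : M1 ∈ Lp := by
            simp only [hLp, mem_erase, mem_filter, mem_univ, true_and]
            exact ⟨fun e => hMM1 e.symm, hpM1⟩
          refine mem_image.mpr ⟨M1, hM1, ?_⟩
          exact ((hf M1 ⟨hpM1, hMM1⟩).2 c ⟨hcM1, fun e => hpc_ne e.symm, hac⟩).symm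
      · rintro (hc | hc)
        · simp only [hC1, mem_erase, mem_filter, mem_univ, true_and] at hc
          exact ⟨⟨fun e => hc.2.1 e.symm, M, hpM, hc.2.2⟩, ⟨fun e => hc.1 e.symm, M, haM, hc.2.2⟩⟩
        · obtain ⟨M1, hM1, rfl⟩ := mem_image.mp hc
          have h1 := hLpmem M1 hM1
          have c1 := (hf M1 h1).1
          exact ⟨⟨fun e => c1.2.1 e.symm, M1, h1.1, c1.1⟩, c1.2.2⟩
    rw [hU, card_union_of_disjoint hdisj, hC1card, hC2card]
    omega
  · -- mu
    intro p w h1 h2
    rw [← hmu p w h1 h2, Set.ncard_eq_toFinset_card']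
    congr 1; ext c; simp

theorem pls_l_le_two {P : Type*} {Λ : Type*} [Finite P] [Finite Λ] (inc : P → Λ → Prop) (l : ℕ)
    (hne : Nonempty P)
    (h4 : ∀ M, {p | inc p M}.ncard = 4)
    (huniq : ∀ p w M M', p ≠ w → inc p M → inc w M → inc p M' → inc w M' → M = M')
    (hl : ∀ p, {M | inc p M}.ncard = l)
    (hT : ∀ p M M1 a, M ≠ M1 → inc p M → inc p M1 → inc a M → a ≠ p →
      ∃! c, inc c M1 ∧ c ≠ p ∧ plsAdj inc a c)
    (hmu : ∀ p w, p ≠ w → ¬ plsAdj inc p w →
      {c | plsAdj inc p c ∧ plsAdj inc w c}.ncard = 4) :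
    l ≤ 2 :=
  (pls_main inc l hne h4 huniq hl hT hmu).1

/-- The number of points: `1`, `4`, `10` for `l = 0, 1, 2`. -/
theorem pls_card {P : Type*} {Λ : Type*} [Finite P] [Finite Λ] (inc : P → Λ → Prop) (l : ℕ)
    (hne : Nonempty P)
    (h4 : ∀ M, {p | inc p M}.ncard = 4)
    (huniq : ∀ p w M M', p ≠ w → inc p M → inc w M → inc p M' → inc w M' → M = M')
    (hl : ∀ p, {M | inc p M}.ncard = l)
    (hT : ∀ p M M1 a, M ≠ M1 → inc p M → inc p M1 → inc a M → a ≠ p →
      ∃! c, inc c M1 ∧ c ≠ p ∧ plsAdj inc a c)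
    (hmu : ∀ p w, p ≠ w → ¬ plsAdj inc p w →
      {c | plsAdj inc p c ∧ plsAdj inc w c}.ncard = 4) :
    Nat.card P = 1 ∨ Nat.card P = 4 ∨ Nat.card P = 10 := by
  obtain ⟨h1, h2⟩ := pls_main inc l hne h4 huniq hl hT hmu
  interval_cases l <;> omega

end Cfsg.Agent.Lib.Helper35.Zass
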