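import Mathlib

/-!
# A strongly regular graph lemma for the Zassenhaus theorem (S0690)

`srg_l_le_two`: a finite nonempty graph in which every vertex has `3 * l` neighbours, two
adjacent vertices have `l + 1` common neighbours and two distinct non-adjacent vertices have
`4` common neighbours satisfies `l ≤ 2`.

Proof: the adjacency matrix `A` is real symmetric with `(A - 3l)(A² - (l-3)A - (3l-4)) = 0`,
so every eigenvalue is `3l` or `((l-3) ± √D)/2` with `D = (l+3)² - 16`, which is not a square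
for `l ≥ 3`; the trace of `A` is `0`, and `3l` is an eigenvalue.
-/

namespace Cfsg.Agent.Lib.Helper35.Zass

open Matrix Finset

theorem srg_not_isSquare (l : ℕ) (hl : 3 ≤ l) : ¬ IsSquare ((l + 3) ^ 2 - 16 : ℕ) := by
  rintro ⟨m, hm⟩
  have h1 : 16 ≤ (l + 3) ^ 2 := by nlinarith
  have h2 : m * m + 16 = (l + 3) ^ 2 := by omega
  have h3 : m < l + 3 := by nlinarith
  have h4 : l < m := by nlinarith
  have h5 : m = l + 1 ∨ m = l + 2 := by omega
  rcases h5 with rfl | rfl
  · nlinarith
  · ring_nf at h2; omega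

theorem srg_l_le_two {P : Type*} [Fintype P] [DecidableEq P]
    (adj : P → P → Prop) [DecidableRel adj]
    (hs : ∀ p w, adj p w → adj w p) (hi : ∀ p, ¬ adj p p) (l : ℕ) (hne : Nonempty P)
    (hk : ∀ p, (univ.filter (adj p)).card = 3 * l)
    (hl : ∀ p a, adj p a → (univ.filter (fun c => adj p c ∧ adj a c)).card = l + 1)
    (hm : ∀ p w, p ≠ w → ¬ adj p w → (univ.filter (fun c => adj p c ∧ adj w c)).card = 4) :
    l ≤ 2 := by
  by_contra hcon
  have hl3 : 3 ≤ l := by omega
  have hl3R : (3 : ℝ) ≤ (l : ℝ) := by exact_mod_cast hl3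
  let A : Matrix P P ℝ := Matrix.of fun x y => if adj x y then (1 : ℝ) else 0
  have hAapp : ∀ x y, A x y = if adj x y then (1 : ℝ) else 0 := fun x y => rfl
  have hAH : A.IsHermitian := by
    ext x y
    simp only [Matrix.conjTranspose_apply, hAapp, star_trivial]
    by_cases h : adj x y
    · simp [h, hs x y h]
    · have : ¬ adj y x := fun h' => h (hs y x h')
      simp [h, this]
  let J : Matrix P P ℝ := Matrix.of fun _ _ => (1 : ℝ)
  have hJapp : ∀ x y, J x y = 1 := fun x y => rfl
  have hAJ : A * J = (3 * l : ℝ) • J := by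
    ext x y
    simp only [Matrix.mul_apply, hAapp, Matrix.smul_apply, hJapp, mul_one, smul_eq_mul]
    rw [Finset.sum_boole, hk x]
    push_cast; ring
  have hAA : A * A = (3 * l - 4 : ℝ) • (1 : Matrix P P ℝ) + ((l : ℝ) - 3) • A + (4 : ℝ) • J := by
    ext x y
    simp only [Matrix.mul_apply, hAapp, Matrix.add_apply, Matrix.smul_apply, Matrix.one_apply,
      hJapp, smul_eq_mul, mul_one]
    have key : ∑ z, (if adj x z then (1 : ℝ) else 0) * (if adj z y then (1 : ℝ) else 0)
        = ((univ.filter (fun c => adj x c ∧ adj y c)).card : ℝ) := by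
      rw [Finset.card_filter]
      push_cast
      refine Finset.sum_congr rfl fun z _ => ?_
      by_cases h1 : adj x z <;> by_cases h2 : adj y z
      · simp [h1, h2, hs y z h2]
      · have : ¬ adj z y := fun h' => h2 (hs z y h')
        simp [h1, h2, this]
      · simp [h1]
      · simp [h1]
    rw [key]
    by_cases hxy : x = y
    · subst hxy
      have : (univ.filter (fun c => adj x c ∧ adj x c)) = univ.filter (adj x) := by
        ext; simp
      rw [this, hk x]
      simp [hi x]
    · by_cases ha : adj x y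
      · rw [hl x y ha]
        simp [hxy, ha]
        ring
      · rw [hm x y hxy ha]
        simp [hxy, ha]
  have hroot : ∀ j, (hAH.eigenvalues j - 3 * l) *
      (hAH.eigenvalues j ^ 2 - ((l : ℝ) - 3) * hAH.eigenvalues j - (3 * l - 4)) = 0 := by
    intro j
    set v : P → ℝ := ⇑(hAH.eigenvectorBasis j) with hv
    set θ := hAH.eigenvalues j with hθ
    have hv0 : v ≠ 0 := (WithLp.ofLp_eq_zero 2).ne.2 <| hAH.eigenvectorBasis.orthonormal.ne_zero j
    have hAv : A *ᵥ v = θ • v := hAH.mulVec_eigenvectorBasis j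
    have hAAv : (A * A) *ᵥ v = (θ ^ 2) • v := by
      rw [← Matrix.mulVec_mulVec, hAv, Matrix.mulVec_smul, hAv, smul_smul, pow_two]
    have hJv : (4 : ℝ) • (J *ᵥ v) = (θ ^ 2 - ((l : ℝ) - 3) * θ - (3 * l - 4)) • v := by
      have := hAAv
      rw [hAA, Matrix.add_mulVec, Matrix.add_mulVec, Matrix.smul_mulVec, Matrix.smul_mulVec,
        Matrix.smul_mulVec, Matrix.one_mulVec, hAv] at this
      have h2 : (4 : ℝ) • (J *ᵥ v)
          = (θ ^ 2) • v - (3 * (l : ℝ) - 4) • v - ((l : ℝ) - 3) • θ • v := by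
        rw [← this]; abel
      rw [h2, smul_smul, ← sub_smul, ← sub_smul]
      congr 1; ring
    have hAJv : A *ᵥ (J *ᵥ v) = (3 * l : ℝ) • (J *ᵥ v) := by
      rw [Matrix.mulVec_mulVec, hAJ, Matrix.smul_mulVec]
    have h3 : (θ ^ 2 - ((l : ℝ) - 3) * θ - (3 * l - 4)) • (θ • v)
        = (3 * l : ℝ) • ((θ ^ 2 - ((l : ℝ) - 3) * θ - (3 * l - 4)) • v) := by
      have e1 : A *ᵥ ((4 : ℝ) • (J *ᵥ v)) = (3 * l : ℝ) • ((4 : ℝ) • (J *ᵥ v)) := by
        rw [Matrix.mulVec_smul, hAJv, smul_comm]
      rw [hJv, Matrix.mulVec_smul, hAv] at e1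
      exact e1
    have h4 : ((θ - 3 * l) * (θ ^ 2 - ((l : ℝ) - 3) * θ - (3 * l - 4))) • v = 0 := by
      have : ((θ - 3 * l) * (θ ^ 2 - ((l : ℝ) - 3) * θ - (3 * l - 4))) • v
          = (θ ^ 2 - ((l : ℝ) - 3) * θ - (3 * l - 4)) • (θ • v)
            - (3 * l : ℝ) • ((θ ^ 2 - ((l : ℝ) - 3) * θ - (3 * l - 4)) • v) := by
        rw [smul_smul, smul_smul, ← sub_smul]; congr 1; ring
      rw [this, h3, sub_self]
    rcases smul_eq_zero.mp h4 with h | h
    · exact h
    · exact absurd h hv0
  have hex : ∃ j0, hAH.eigenvalues j0 = 3 * l := by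
    have hmem : (3 * l : ℝ) ∈ spectrum ℝ A := by
      rw [spectrum.mem_iff, Matrix.isUnit_iff_isUnit_det, isUnit_iff_ne_zero, not_not]
      apply Matrix.exists_mulVec_eq_zero_iff.mp
      refine ⟨fun _ => 1, ?_, ?_⟩
      · obtain ⟨p⟩ := hne
        intro h
        have := congrFun h p
        simp at this
      · ext x
        rw [Matrix.sub_mulVec, Algebra.algebraMap_eq_smul_one, Matrix.smul_mulVec,
          Matrix.one_mulVec]
        simp only [Pi.sub_apply, Pi.smul_apply, Pi.zero_apply, Matrix.mulVec, dotProduct, hAapp,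
          mul_one, smul_eq_mul]
        rw [Finset.sum_boole, hk x]
        push_cast; ring
    rw [hAH.spectrum_real_eq_range_eigenvalues] at hmem
    exact hmem
  obtain ⟨j0, hj0⟩ := hex
  have htr : ∑ j, hAH.eigenvalues j = 0 := by
    have h := hAH.trace_eq_sum_eigenvalues
    have h0 : A.trace = 0 := by
      simp [Matrix.trace, hAapp, hi]
    rw [h0] at h
    simpa using h.symm
  set D : ℕ := (l + 3) ^ 2 - 16 with hD
  have hDR : (D : ℝ) = ((l : ℝ) + 3) ^ 2 - 16 := by
    have : 16 ≤ (l + 3) ^ 2 := by nlinarith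
    rw [hD]; push_cast [Nat.cast_sub this]; ring
  set d : ℝ := Real.sqrt (D : ℝ) with hd
  have hdirr : Irrational d := irrational_sqrt_natCast_iff.mpr (srg_not_isSquare l hl3)
  have hdsq : d ^ 2 = ((l : ℝ) + 3) ^ 2 - 16 := by
    rw [hd, Real.sq_sqrt (Nat.cast_nonneg D), hDR]
  let a : P → ℤ := fun j => if hAH.eigenvalues j = 3 * l then 6 * (l : ℤ) else (l : ℤ) - 3
  let b : P → ℤ := fun j => if hAH.eigenvalues j = 3 * l then 0 else
    if 2 * hAH.eigenvalues j - ((l : ℝ) - 3) = d then 1 else -1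
  have hab : ∀ j, 2 * hAH.eigenvalues j = (a j : ℝ) + (b j : ℝ) * d := by
    intro j
    by_cases h1 : hAH.eigenvalues j = 3 * l
    · simp only [a, b, h1, if_true]; push_cast; ring
    · have hq : hAH.eigenvalues j ^ 2 - ((l : ℝ) - 3) * hAH.eigenvalues j - (3 * l - 4) = 0 := by
        rcases mul_eq_zero.mp (hroot j) with h | h
        · exact absurd (sub_eq_zero.mp h) h1
        · exact h
      have hsq : (2 * hAH.eigenvalues j - ((l : ℝ) - 3)) ^ 2 = d ^ 2 := by
        rw [hdsq]; linear_combination 4 * hq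
      by_cases h2 : 2 * hAH.eigenvalues j - ((l : ℝ) - 3) = d
      · simp only [a, b, h1, h2, if_true, if_false]; push_cast; linarith
      · have h3 : 2 * hAH.eigenvalues j - ((l : ℝ) - 3) = -d := by
          rcases sq_eq_sq_iff_eq_or_eq_neg.mp hsq with h | h
          · exact absurd h h2
          · exact h
        simp only [a, b, h1, h2, if_false]; push_cast; linarith
  have hsum : ((∑ j, a j : ℤ) : ℝ) + ((∑ j, b j : ℤ) : ℝ) * d = 0 := by
    push_cast
    rw [Finset.sum_mul, ← Finset.sum_add_distrib]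
    rw [← Finset.sum_congr rfl (fun j _ => hab j), ← Finset.mul_sum, htr, mul_zero]
  have hb0 : ∑ j, b j = 0 := by
    by_contra hb
    have := (hdirr.mul_intCast hb).ne_int (- ∑ j, a j)
    apply this
    push_cast at hsum ⊢
    linarith
  have ha0 : ∑ j, a j = 0 := by
    rw [hb0] at hsum
    have : ((∑ j, a j : ℤ) : ℝ) = 0 := by simpa using hsum
    exact_mod_cast this
  have hapos : ∀ j, 0 ≤ a j := by
    intro j
    simp only [a]
    split_ifs <;> omega
  have hle : a j0 ≤ ∑ j, a j := Finset.single_le_sum (fun j _ => hapos j) (Finset.mem_univ j0)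
  have haj0 : a j0 = 6 * (l : ℤ) := by simp only [a, hj0, if_true]
  omega

end Cfsg.Agent.Lib.Helper35.Zass
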