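import Cfsg.Agent.Lib.Helper51.Zass.Defs
import Cfsg.Agent.Lib.Helper35.Zass.SRG

/-!
# ZASS package [SRG] (S0690)
-/

set_option autoImplicit false

namespace Cfsg.Agent.Lib.Helper35.Zass

universe u

theorem pkgSRG : Cfsg.Agent.Lib.Helper51.Zass.PkgSRG.{u} := by
  intro P _ _ adj _ l hne hl3 hs hi hk hlam hmu
  have h := srg_l_le_two adj hs hi l hne hk hlam hmu
  omega

end Cfsg.Agent.Lib.Helper35.Zass
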